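import Groth.Agent.Sga1.SplitFibre
import Mathlib.AlgebraicGeometry.ResidueField
import Mathlib.FieldTheory.IsAlgClosed.AlgebraicClosure

/-!
# Sections of geometrically split covers over separably closed fields
-/

set_option autoImplicit false
set_option backward.isDefEq.respectTransparency false
set_option backward.isDefEq.respectTransparency.types false

open CategoryTheory CategoryTheory.Limits AlgebraicGeometry Opposite TensorProduct
open Groth.Agent.Sga1.SectionSpread Groth.Agent.Pi1A.FEtAffine Groth.Agent.Sga1.LocTriv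

universe u

namespace Groth.Agent.Pi1.H398.SplitSec

/-- Points with values in a field factor through the residue field. -/
theorem exists_fac {S : Scheme.{u}} {K : Type u} [Field K] (ζ : Spec (CommRingCat.of K) ⟶ S) (s : S)
    (h : ζ (IsLocalRing.closedPoint K) = s) :
    ∃ ξ : Spec (CommRingCat.of K) ⟶ Spec (CommRingCat.of (S.residueField s)),
      ξ ≫ S.fromSpecResidueField s = ζ := by
  subst h
  exact ⟨Spec.map (S.descResidueField (Scheme.stalkClosedPointTo ζ)),
    Scheme.descResidueField_stalkClosedPointTo_fromSpecResidueField K S ζ⟩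

/-- Spectra of fields surject. -/
theorem surjective_spec {K L : Type u} [Field K] [Field L]
    (ζ : Spec (CommRingCat.of L) ⟶ Spec (CommRingCat.of K)) : Surjective ζ :=
  ⟨fun _ => ⟨IsLocalRing.closedPoint L, Subsingleton.elim (α := PrimeSpectrum K) _ _⟩⟩

/-- A nonempty split cover has a section. -/
theorem exists_section_of_isSplit {X : Scheme.{u}} (Y : FEt.Cat X) (hY : Pi1.IsSplit Y)
    (hne : Nonempty Y.left) : ∃ τ : X ⟶ Y.left, τ ≫ Y.hom = 𝟙 X := by
  obtain ⟨ι, hι, e, he⟩ := hY
  have hι' : Nonempty ι := by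
    by_contra hn
    rw [not_nonempty_iff] at hn
    obtain ⟨y⟩ := hne
    have h1 := (sigmaMk (fun _ : ι => X)).symm (e.hom y)
    exact hn.elim h1.1
  obtain ⟨i⟩ := hι'
  exact ⟨Sigma.ι (fun _ : ι => X) i ≫ e.inv, by rw [Category.assoc]; exact he i⟩

/-- Geometrically split covers have sections over separably closed fields. -/
theorem exists_section {κ : Type u} [Field κ] {X : Scheme.{u}} (q : X ⟶ Spec (CommRingCat.of κ))
    (Z : FEt.Cat X) (hne : Nonempty Z.left)
    (hsplit : Pi1.IsSplit ((FEt.restrict (pullback.fst q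
      (Spec.map (CommRingCat.ofHom (algebraMap κ (AlgebraicClosure κ)))))).obj Z))
    (k : Type u) [Field k] [IsSepClosed k] (ξ : Spec (CommRingCat.of k) ⟶ Spec (CommRingCat.of κ)) :
    ∃ a : pullback q ξ ⟶ Z.left, a ≫ Z.hom = pullback.fst q ξ := by
  let κb := AlgebraicClosure κ
  obtain ⟨τ, hτ⟩ := exists_section_of_isSplit _ hsplit (by
    obtain ⟨z⟩ := hne
    have hs : Surjective (str κ κb) := surjective_spec _
    have hs2 : Surjective (pullback.fst q (str κ κb)) :=
      MorphismProperty.pullback_fst _ _ hs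
    have hs3 : Surjective (pullback.fst Z.hom (pullback.fst q (str κ κb))) :=
      MorphismProperty.pullback_fst _ _ hs2
    obtain ⟨z', -⟩ := hs3.surj z
    exact ⟨z'⟩)
  obtain ⟨φ, rfl⟩ := Spec.map_surjective ξ
  let ξ : Spec (CommRingCat.of k) ⟶ Spec (CommRingCat.of κ) := Spec.map φ
  let K := AlgebraicClosure k
  let _ : Algebra κ k := φ.hom.toAlgebra
  let _ : Algebra κ K := ((algebraMap k K).comp φ.hom).toAlgebra
  let ρ : κb →ₐ[κ] K := IsAlgClosed.lift
  let ξK : Spec (CommRingCat.of K) ⟶ Spec (CommRingCat.of κ) := str k K ≫ ξ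
  have hρ : sp ρ ≫ str κ κb = ξK := by
    rw [sp_str]
    change Spec.map _ = Spec.map _ ≫ Spec.map φ
    rw [← Spec.map_comp]
    rfl
  let h : pullback q ξK ⟶ pullback q ξ := jmap q (str k K) rfl
  have hsq : IsPullback h (pullback.snd q ξK) (pullback.snd q ξ) (str k K) :=
    isPullback_jmap q (str k K) rfl
  have hi0 : IsIntegralHom (str k K) := by
    rw [IsIntegralHom.SpecMap_iff]
    exact algebraMap_isIntegral_iff.mpr inferInstance
  have hu0 : UniversallyInjective (str k K) :=
    Groth.Agent.Sga1.SplitFibre.universallyInjective_of_isPurelyInseparable k K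
  have hs0 : Surjective (str k K) := surjective_spec _
  have hi : IsIntegralHom h := MorphismProperty.of_isPullback hsq.flip hi0
  have hu : UniversallyInjective h := MorphismProperty.of_isPullback hsq.flip hu0
  have hs : Surjective h := MorphismProperty.of_isPullback hsq.flip hs0
  obtain ⟨hfull, -⟩ := Groth.Agent.S0283.result h
  have hfst : h ≫ pullback.fst q ξ = pullback.fst q ξK := jmap_fst q (str k K) rfl
  -- the section over `K`
  let aK : pullback q ξK ⟶ Z.left :=
    jmap q (sp ρ) hρ ≫ τ ≫ pullback.fst Z.hom (pullback.fst q (str κ κb))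
  have haK : aK ≫ Z.hom = pullback.fst q ξK := by
    have h1 : τ ≫ pullback.snd Z.hom (pullback.fst q (str κ κb)) = 𝟙 _ := hτ
    change (jmap q (sp ρ) hρ ≫ τ ≫ pullback.fst Z.hom (pullback.fst q (str κ κb))) ≫ Z.hom = _
    rw [Category.assoc, Category.assoc, pullback.condition, reassoc_of% h1, jmap_fst]
  let one : FEt.Cat (pullback q ξ) := MorphismProperty.Over.mk ⊤ (𝟙 _) ⟨inferInstance, inferInstance⟩
  let Zk : FEt.Cat (pullback q ξ) := (FEt.restrict (pullback.fst q ξ)).obj Z
  let bK : pullback q ξK ⟶ Zk.left := pullback.lift aK h (by rw [haK, hfst])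
  have hbK : bK ≫ Zk.hom = h := pullback.lift_snd _ _ _
  let m : (FEt.restrict h).obj one ⟶ (FEt.restrict h).obj Zk :=
    MorphismProperty.Over.homMk (pullback.lift (pullback.snd (𝟙 _) h ≫ bK) (pullback.snd (𝟙 _) h) (by
      rw [Category.assoc, hbK])) (pullback.lift_snd _ _ _) trivial
  obtain ⟨a, -⟩ := (FEt.restrict h).map_surjective m
  have ha : a.left ≫ Zk.hom = 𝟙 _ := hom_w a
  refine ⟨a.left ≫ pullback.fst Z.hom (pullback.fst q ξ), ?_⟩
  have ha' : a.left ≫ pullback.snd Z.hom (pullback.fst q ξ) = 𝟙 _ := ha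
  rw [Category.assoc, pullback.condition]
  exact (reassoc_of% ha') _

end Groth.Agent.Pi1.H398.SplitSec
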