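import Mathlib.AlgebraicGeometry.Normalization
import Mathlib.AlgebraicGeometry.Morphisms.Etale
import Mathlib.AlgebraicGeometry.Morphisms.ClosedImmersion

/-!
# Normalization in a clopen part of an étale base change
-/

set_option autoImplicit false
set_option backward.isDefEq.respectTransparency false

open CategoryTheory CategoryTheory.Limits AlgebraicGeometry

universe u

namespace Groth.Agent.Pi1.H398.SteinPart

/-- The normalization in a clopen part is a clopen part of the normalization. -/
theorem exists_clopen {X T V : Scheme.{u}} (f : X ⟶ T) [QuasiCompact f] [QuasiSeparated f]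
    (i : V ⟶ X) [IsOpenImmersion i] [IsClosedImmersion i]
    (fV : V ⟶ T) [QuasiCompact fV] [QuasiSeparated fV] (hfV : i ≫ f = fV) :
    ∃ ν : fV.normalization ⟶ f.normalization, IsOpenImmersion ν ∧
      IsPullback i fV.toNormalization f.toNormalization ν ∧
      ν ≫ f.fromNormalization = fV.fromNormalization := by
  subst hfV
  let V' : X.Opens := ⟨(Set.range i)ᶜ, i.isClosedEmbedding.isClosed_range.isOpen_compl⟩
  have hV'cl : IsClosed (V' : Set X) := by
    change IsClosed (Set.range i)ᶜ
    exact i.isOpenEmbedding.isOpen_range.isClosed_compl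
  have hV'i : IsClosedImmersion V'.ι := by
    refine IsClosedImmersion.of_isPreimmersion _ ?_
    rw [Scheme.Opens.range_ι]
    exact hV'cl
  have hcompl : IsCompl i.opensRange V'.ι.opensRange := by
    rw [Scheme.Opens.opensRange_ι]
    constructor
    · rw [disjoint_iff]
      ext x
      simp [V']
    · rw [codisjoint_iff]
      ext x
      simp only [TopologicalSpace.Opens.coe_sup, Scheme.Hom.coe_opensRange,
        TopologicalSpace.Opens.coe_top, Set.mem_univ, iff_true]
      exact em (x ∈ Set.range i)
  obtain ⟨e⟩ := nonempty_isColimit_binaryCofanMk_of_isCompl i V'.ι hcompl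
  have h1 : QuasiCompact (V'.ι ≫ f) := inferInstance
  have h2 : QuasiSeparated (V'.ι ≫ f) := inferInstance
  let E := f.normalizationCoprodIso e
  let ν : (i ≫ f).normalization ⟶ f.normalization := coprod.inl ≫ E.hom
  have hν : IsOpenImmersion ν := inferInstance
  have hw : i ≫ f.toNormalization = (i ≫ f).toNormalization ≫ ν :=
    (f.toNormalization_inl_normalizationCoprodIso_hom e).symm
  refine ⟨ν, hν, ?_, ?_⟩
  · refine (IsOpenImmersion.isPullback (i ≫ f).toNormalization i ν f.toNormalization hw ?_).flip
    apply le_antisymm
    · intro x hx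
      by_contra hn
      have hx' : x ∈ V' := hn
      obtain ⟨y, hy⟩ : ∃ y : V'.toScheme, V'.ι y = x := ⟨⟨x, hx'⟩, rfl⟩
      obtain ⟨z, hz⟩ := (hx : f.toNormalization x ∈ ν.opensRange)
      have h3 : V'.ι ≫ f.toNormalization = (V'.ι ≫ f).toNormalization ≫ coprod.inr ≫ E.hom :=
        (f.toNormalization_inr_normalizationCoprodIso_hom e).symm
      have h4 : f.toNormalization x = E.hom ((coprod.inr : (V'.ι ≫ f).normalization ⟶ _)
          ((V'.ι ≫ f).toNormalization y)) := by
        rw [← hy, ← Scheme.Hom.comp_apply, h3]
        simp only [Scheme.Hom.comp_apply]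
      have h5 : ν z = E.hom ((coprod.inl : (i ≫ f).normalization ⟶
          (i ≫ f).normalization ⨿ (V'.ι ≫ f).normalization) z) := by
        simp only [ν, Scheme.Hom.comp_apply]
      have h6 := hz.symm.trans h5
      rw [h4] at h6
      have h7 := E.hom.homeomorph.injective h6
      exact inl_ne_inr _ _ _ _ h7.symm
    · rintro _ ⟨y, rfl⟩
      refine ⟨(i ≫ f).toNormalization y, ?_⟩
      rw [← Scheme.Hom.comp_apply, ← Scheme.Hom.comp_apply, hw]
  · change (coprod.inl ≫ E.hom) ≫ _ = _
    rw [Category.assoc]
    exact f.inl_normalizationCoprodIso_hom_fromNormalization e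

/-- The normalization of an étale base change. -/
theorem exists_bc {X S T XT : Scheme.{u}} (f : X ⟶ S) [QuasiCompact f] [QuasiSeparated f]
    (t : T ⟶ S) [Etale t] (p : XT ⟶ X) (fT : XT ⟶ T) (sq : IsPullback p fT f t)
    [QuasiCompact fT] [QuasiSeparated fT] :
    ∃ ν : fT.normalization ⟶ f.normalization, Etale ν ∧
      IsPullback p fT.toNormalization f.toNormalization ν ∧
      ν ≫ f.fromNormalization = fT.fromNormalization ≫ t := by
  -- the case of the chosen pullback
  obtain ⟨ν, h1, h2, h3⟩ : ∃ ν : (pullback.snd f t).normalization ⟶ f.normalization, Etale ν ∧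
      IsPullback (pullback.fst f t) (pullback.snd f t).toNormalization f.toNormalization ν ∧
      ν ≫ f.fromNormalization = (pullback.snd f t).fromNormalization ≫ t := by
    let n := f.normalizationPullback t
    refine ⟨n ≫ pullback.fst f.fromNormalization t, inferInstance, ?_, ?_⟩
    · have sq1 : IsPullback (pullback.fst f t) ((pullback.snd f t).toNormalization ≫ n)
          f.toNormalization (pullback.fst f.fromNormalization t) := by
        refine IsPullback.of_bot (h₃₁ := t) (v₂₁ := pullback.snd f.fromNormalization t)
          (v₂₂ := f.fromNormalization) ?_ ?_ (IsPullback.of_hasPullback f.fromNormalization t)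
        · rw [Category.assoc, Scheme.Hom.normalizationPullback_snd,
            Scheme.Hom.toNormalization_fromNormalization,
            Scheme.Hom.toNormalization_fromNormalization]
          exact IsPullback.of_hasPullback f t
        · rw [Category.assoc]
          exact (f.toNormalization_normalizationPullback_fst t).symm
      have sq2 : IsPullback (𝟙 (pullback f t)) (pullback.snd f t).toNormalization
          ((pullback.snd f t).toNormalization ≫ n) n := by
        refine IsPullback.of_horiz_isIso ⟨?_⟩
        rw [Category.id_comp]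
      have := sq2.paste_horiz sq1
      rwa [Category.id_comp] at this
    · rw [Category.assoc, pullback.condition, ← Category.assoc,
        Scheme.Hom.normalizationPullback_snd]
  let e : XT ≅ pullback f t := sq.isoPullback
  have he1 : e.hom ≫ pullback.fst f t = p := sq.isoPullback_hom_fst
  have he2 : e.hom ≫ pullback.snd f t = fT := sq.isoPullback_hom_snd
  obtain ⟨ν', h4, h5, h6⟩ := exists_clopen (pullback.snd f t) e.hom fT he2
  refine ⟨ν' ≫ ν, inferInstance, ?_, ?_⟩
  · have := h5.paste_horiz h2
    rwa [he1] at this
  · rw [Category.assoc, h3, reassoc_of% h6]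

/-- The normalization in a clopen part of an étale base change. -/
theorem exists_part {X S T XT V : Scheme.{u}} (f : X ⟶ S) [QuasiCompact f] [QuasiSeparated f]
    (t : T ⟶ S) [Etale t] (p : XT ⟶ X) (fT : XT ⟶ T) (sq : IsPullback p fT f t)
    (i : V ⟶ XT) [IsOpenImmersion i] [IsClosedImmersion i]
    (fV : V ⟶ T) [QuasiCompact fV] [QuasiSeparated fV] (hfV : i ≫ fT = fV) :
    ∃ ν : fV.normalization ⟶ f.normalization, Etale ν ∧
      IsPullback (i ≫ p) fV.toNormalization f.toNormalization ν ∧
      ν ≫ f.fromNormalization = fV.fromNormalization ≫ t := by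
  have hqc : QuasiCompact fT := MorphismProperty.of_isPullback sq inferInstance
  have hqs : QuasiSeparated fT := MorphismProperty.of_isPullback sq inferInstance
  obtain ⟨ν₁, h1, h2, h3⟩ := exists_bc f t p fT sq
  obtain ⟨ν₂, h4, h5, h6⟩ := exists_clopen fT i fV hfV
  refine ⟨ν₂ ≫ ν₁, inferInstance, h5.paste_horiz h2, ?_⟩
  rw [Category.assoc, h3, reassoc_of% h6]

end Groth.Agent.Pi1.H398.SteinPart
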