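import Groth.Agent.Pi1A.SteinEtale
import Mathlib.AlgebraicGeometry.Morphisms.UniversallyInjective
import Mathlib.FieldTheory.IsAlgClosed.AlgebraicClosure

/-!
# Integral morphisms with connected geometric fibres are universally injective
-/

set_option autoImplicit false
set_option backward.isDefEq.respectTransparency false

open CategoryTheory CategoryTheory.Limits AlgebraicGeometry

universe u

namespace Groth.Agent.Pi1.H398.UHNorm

theorem section_eq_spec {K : Type u} [Field K] {R : CommRingCat.{u}} [Subsingleton (Spec R)]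
    (q : Spec R ⟶ Spec (CommRingCat.of K)) (s t : Spec (CommRingCat.of K) ⟶ Spec R)
    (hs : s ≫ q = 𝟙 _) (ht : t ≫ q = 𝟙 _) : s = t := by
  obtain ⟨φ, rfl⟩ := Spec.map_surjective s
  obtain ⟨ψ, rfl⟩ := Spec.map_surjective t
  obtain ⟨χ, rfl⟩ := Spec.map_surjective q
  rw [← Spec.map_comp, ← Spec.map_id] at hs ht
  have hs' : χ ≫ φ = 𝟙 _ := Spec.map_injective hs
  have ht' : χ ≫ ψ = 𝟙 _ := Spec.map_injective ht
  congr 1
  ext r
  have h1 : ∀ a : K, φ (χ a) = a := fun a => congrArg (fun f => f.hom a) hs'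
  have h2 : ∀ a : K, ψ (χ a) = a := fun a => congrArg (fun f => f.hom a) ht'
  have hker : ∀ x : R, φ x = 0 → ψ x = 0 := by
    intro x hx
    let pt : PrimeSpectrum K := ⊥
    have hpt : PrimeSpectrum.comap φ.hom pt = PrimeSpectrum.comap ψ.hom pt := by
      have h3 : (Spec.map φ pt : Spec R) = Spec.map ψ pt := Subsingleton.elim _ _
      exact h3
    have h4 : x ∈ (PrimeSpectrum.comap φ.hom pt).asIdeal := by
      change φ x ∈ pt.asIdeal
      rw [hx]
      exact pt.asIdeal.zero_mem
    rw [hpt] at h4
    change ψ x ∈ (⊥ : Ideal K) at h4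
    exact (Ideal.mem_bot.mp h4)
  have h5 : φ (r - χ (φ r)) = 0 := by
    rw [map_sub, h1, sub_self]
  have h6 := hker _ h5
  rw [map_sub, h2, sub_eq_zero] at h6
  exact h6.symm

/-- Two sections of an affine scheme with one point over the spectrum of a field agree. -/
theorem section_eq {K : Type u} [Field K] {P : Scheme.{u}} [IsAffine P] [Subsingleton P]
    (q : P ⟶ Spec (CommRingCat.of K)) (s t : Spec (CommRingCat.of K) ⟶ P)
    (hs : s ≫ q = 𝟙 _) (ht : t ≫ q = 𝟙 _) : s = t := by
  have h1 : Subsingleton (Spec Γ(P, ⊤)) := (P.isoSpec.hom.homeomorph.symm.injective).subsingleton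
  have := section_eq_spec (P.isoSpec.inv ≫ q) (s ≫ P.isoSpec.hom) (t ≫ P.isoSpec.hom)
    (by simpa using hs) (by simpa using ht)
  exact (cancel_mono P.isoSpec.hom).mp this

/-- An integral morphism `b : Y ⟶ S` such that for some surjection `a : X ⟶ Y` the geometric fibres of
`a ≫ b` are connected is universally injective. -/
theorem universallyInjective_of_connected {X Y S : Scheme.{u}} (a : X ⟶ Y) [Surjective a]
    (b : Y ⟶ S) [IsIntegralHom b] (f : X ⟶ S) (hf : a ≫ b = f)
    (hconn : ∀ (Ω : Type u) [Field Ω] [IsAlgClosed Ω] (σ : Spec (CommRingCat.of Ω) ⟶ S),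
      ConnectedSpace ↥(pullback f σ)) : UniversallyInjective b := by
  subst hf
  refine ((tfae_universallyInjective b).out 0 1).mpr ?_
  intro K _ y₁ y₂ h
  change y₁ ≫ b = y₂ ≫ b at h
  let Ω := AlgebraicClosure K
  let e : Spec (CommRingCat.of Ω) ⟶ Spec (CommRingCat.of K) :=
    Spec.map (CommRingCat.ofHom (algebraMap K Ω))
  have he : Epi e := by
    have : Surjective e := ⟨fun x => ⟨(⊥ : PrimeSpectrum Ω), Subsingleton.elim (α := PrimeSpectrum K) _ _⟩⟩
    have : Flat e := by
      rw [HasRingHomProperty.Spec_iff (P := @Flat)]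
      exact RingHom.flat_algebraMap_iff.mpr inferInstance
    exact Flat.epi_of_flat_of_surjective e
  rw [← cancel_epi e]
  let σ : Spec (CommRingCat.of Ω) ⟶ S := e ≫ y₁ ≫ b
  have hX := hconn Ω σ
  let r : pullback (a ≫ b) σ ⟶ pullback b σ :=
    pullback.lift (pullback.fst (a ≫ b) σ ≫ a) (pullback.snd (a ≫ b) σ)
      (by rw [Category.assoc, pullback.condition])
  have hr : IsPullback (pullback.fst (a ≫ b) σ) r a (pullback.fst b σ) := by
    refine IsPullback.of_bot (h₃₁ := σ) (v₂₁ := pullback.snd b σ) (v₂₂ := b) ?_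
      (pullback.lift_fst _ _ _).symm (IsPullback.of_hasPullback b σ)
    rw [pullback.lift_snd]
    exact IsPullback.of_hasPullback (a ≫ b) σ
  have hrs : Surjective r := MorphismProperty.of_isPullback hr inferInstance
  have hP : ConnectedSpace ↥(pullback b σ) :=
    hrs.surj.connectedSpace r.continuous
  let q : pullback b σ ⟶ Spec (CommRingCat.of Ω) := pullback.snd b σ
  have hqi : IsIntegralHom q := inferInstanceAs (IsIntegralHom (pullback.snd b σ))
  have hPa : IsAffine (pullback b σ) := isAffine_of_isAffineHom q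
  have hsub : Subsingleton ↥(pullback b σ) := by
    have h1 := Groth.Agent.Pi1A.SteinEtale.subsingleton_of_isPreconnected q
      (⊥ : PrimeSpectrum Ω) (C := Set.univ) isPreconnected_univ
      (fun x _ => Subsingleton.elim (α := PrimeSpectrum Ω) _ _)
    exact ⟨fun x y => h1 trivial trivial⟩
  let s₁ : Spec (CommRingCat.of Ω) ⟶ pullback b σ := pullback.lift (e ≫ y₁) (𝟙 _) (by
    rw [Category.assoc, Category.id_comp])
  let s₂ : Spec (CommRingCat.of Ω) ⟶ pullback b σ := pullback.lift (e ≫ y₂) (𝟙 _) (by
    rw [Category.assoc, Category.id_comp, ← h])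
  have key : s₁ = s₂ := section_eq q s₁ s₂ (pullback.lift_snd _ _ _) (pullback.lift_snd _ _ _)
  have e1 : s₁ ≫ pullback.fst b σ = e ≫ y₁ := pullback.lift_fst _ _ _
  have e2 : s₂ ≫ pullback.fst b σ = e ≫ y₂ := pullback.lift_fst _ _ _
  change e ≫ y₁ = e ≫ y₂
  rw [← e1, ← e2, key]

/-- `X ⟶ f.normalization` is surjective for `f` universally closed. -/
theorem surjective_toNormalization {X S : Scheme.{u}} (f : X ⟶ S) [UniversallyClosed f]
    [QuasiSeparated f] : Surjective f.toNormalization := by
  have h1 : UniversallyClosed (f.toNormalization ≫ f.fromNormalization) := by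
    rw [Scheme.Hom.toNormalization_fromNormalization]; infer_instance
  have h2 : UniversallyClosed f.toNormalization :=
    UniversallyClosed.of_comp_of_isSeparated f.toNormalization f.fromNormalization
  refine ⟨?_⟩
  rw [← Set.range_eq_univ, ← f.toNormalization.isClosedMap.isClosed_range.closure_eq]
  exact f.toNormalization.denseRange.closure_range

end Groth.Agent.Pi1.H398.UHNorm
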